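import Cfsg.Agent.H913.GeoBasic
import Cfsg.Agent.ClassicalGeometry.SympBasic

/-!
# The action of `Sp_{2k}(F)` on vectors, transvections and tori (for S3499, class 2)
-/

set_option autoImplicit false

namespace Cfsg.Agent.H269.EPC

open Cfsg Cfsg.Geo Cfsg.Agent.ClassicalGeometry.SympBasic Cfsg.Agent.H913.GeoBasic
open scoped MatrixGroups Matrix

variable {k : ℕ} {F : Type*} [Field F]

local notation "V" => (Fin k ⊕ Fin k → F)
local notation "f" => sympForm k F
local notation "GLk" => GL (Fin k ⊕ Fin k) F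

/-- the action on vectors -/
def ap (g : GLk) (u : V) : V := (g : Matrix (Fin k ⊕ Fin k) (Fin k ⊕ Fin k) F) *ᵥ u

theorem ap_mul (g h : GLk) (u : V) : ap (g * h) u = ap g (ap h u) := by
  rw [ap, ap, ap, Matrix.mulVec_mulVec, Units.val_mul]

theorem ap_one (u : V) : ap (1 : GLk) u = u := by rw [ap, Units.val_one, Matrix.one_mulVec]

theorem ap_add (g : GLk) (u w : V) : ap g (u + w) = ap g u + ap g w := Matrix.mulVec_add _ _ _

theorem ap_smul (g : GLk) (c : F) (u : V) : ap g (c • u) = c • ap g u := Matrix.mulVec_smul _ _ _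

theorem ap_zero (g : GLk) : ap g (0 : V) = 0 := Matrix.mulVec_zero _

theorem ap_inv_ap (g : GLk) (u : V) : ap g⁻¹ (ap g u) = u := by rw [← ap_mul, inv_mul_cancel, ap_one]

theorem ap_ap_inv (g : GLk) (u : V) : ap g (ap g⁻¹ u) = u := by rw [← ap_mul, mul_inv_cancel, ap_one]

theorem ap_inj {g : GLk} {u w : V} (h : ap g u = ap g w) : u = w := by
  rw [← ap_inv_ap g u, h, ap_inv_ap]

theorem ext_ap {g h : GLk} (e : ∀ u, ap g u = ap h u) : g = h := by
  apply Units.ext
  rw [← Matrix.mulVec_injective.eq_iff]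
  funext u
  exact e u

theorem mem_sp {g : GLk} : g ∈ spGL k F ↔ ∀ u w, f (ap g u) (ap g w) = f u w := Iff.rfl

theorem exists_perm {t : ℕ} {D : Fin t → Submodule F V} {g : GLk} (hg : g ∈ decompositionStabilizer D) :
    ∃ σ : Equiv.Perm (Fin t), (∀ l, ∀ u ∈ D l, ap g u ∈ D (σ l)) ∧ ∀ l, ∀ w ∈ D (σ l), ∃ u ∈ D l, ap g u = w := by
  obtain ⟨σ, hσ⟩ := hg
  refine ⟨σ, fun l u hu => ?_, fun l w hw => ?_⟩
  · rw [← hσ l]
    exact ⟨u, hu, by rw [Matrix.toLin'_apply]; rfl⟩
  · rw [← hσ l] at hw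
    obtain ⟨u, hu, e⟩ := hw
    rw [Matrix.toLin'_apply] at e
    exact ⟨u, hu, e⟩

theorem mem_dec {t e : ℕ} {D : Fin t → Submodule F V} (hD : IsMDecomposition e D) {g : GLk}
    (h : ∀ l, ∃ j, ∀ u ∈ D l, ap g u ∈ D j) : g ∈ decompositionStabilizer D :=
  mem_decompositionStabilizer_of' hD h

/-- an invertible matrix from a linear map preserving the form -/
theorem exists_gl (L : V →ₗ[F] V) (hL : ∀ u w, f (L u) (L w) = f u w) :
    ∃ g ∈ spGL k F, ∀ u, ap g u = L u := by
  have h1 : LinearMap.toMatrix' L ∈ Matrix.symplecticGroup (Fin k) F := by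
    rw [mem_symplecticGroup_iff]
    intro u w
    rw [LinearMap.toMatrix'_mulVec, LinearMap.toMatrix'_mulVec, hL]
  have h2 : ∀ u, ap (Matrix.GeneralLinearGroup.mk'' (LinearMap.toMatrix' L) (SymplecticGroup.symplectic_det h1)) u =
      L u := fun u => LinearMap.toMatrix'_mulVec L u
  refine ⟨Matrix.GeneralLinearGroup.mk'' (LinearMap.toMatrix' L) (SymplecticGroup.symplectic_det h1), ?_, h2⟩
  rw [mem_sp]
  intro u w
  rw [h2, h2, hL]

/-- the transvection `u ↦ u + c f(u, v) v` -/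
theorem exists_transv (v : V) (c : F) : ∃ x ∈ spGL k F, ∀ u, ap x u = u + (c * f u v) • v := by
  have h1 := sympTransvection_mem v c
  have h2 : ∀ u, ap (Matrix.GeneralLinearGroup.mk'' (sympTransvection k v c) (SymplecticGroup.symplectic_det h1)) u =
      u + (c * f u v) • v := fun u => sympTransvection_mulVec v u c
  refine ⟨_, ?_, h2⟩
  rw [mem_sp]
  intro u w
  exact sympForm_mulVec h1 u w

/-- the torus element `a ↦ c a`, `a' ↦ c⁻¹ a'` (where `f(a', a) = 1`) as a linear map -/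
def tor (a a' : V) (c : Fˣ) : V →ₗ[F] V :=
  LinearMap.id + ((c : F) - 1) • ((sympBilin k F a').smulRight a) +
    (((c⁻¹ : Fˣ) : F) - 1) • (((sympBilin k F).flip a).smulRight a')

theorem tor_apply (a a' : V) (c : Fˣ) (u : V) :
    tor a a' c u = u + ((c : F) - 1) • (f a' u • a) + (((c⁻¹ : Fˣ) : F) - 1) • (f u a • a') := rfl

theorem tor_form {a a' : V} (h : f a' a = 1) (c : Fˣ) (u w : V) : f (tor a a' c u) (tor a a' c w) = f u w := by
  have e1 : f a a' = -1 := by rw [sympForm_swap, h]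
  have e2 : (c : F) * ((c⁻¹ : Fˣ) : F) = 1 := Units.mul_inv c
  rw [tor_apply, tor_apply]
  simp only [sympForm_add_left, sympForm_add_right, sympForm_smul_left, sympForm_smul_right, sympForm_self, h, e1]
  rw [sympForm_swap u a', sympForm_swap a w]
  linear_combination (f u a * f a' w - f a' u * f w a) * e2

/-- the torus elements form a group -/
theorem exists_tor {a a' : V} (h : f a' a = 1) : ∃ H : Fˣ →* GLk, (∀ c, H c ∈ spGL k F) ∧
    ∀ c u, ap (H c) u = u + ((c : F) - 1) • (f a' u • a) + (((c⁻¹ : Fˣ) : F) - 1) • (f u a • a') := by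
  choose g hg hg' using fun c : Fˣ => exists_gl (tor a a' c) (tor_form h c)
  refine ⟨MonoidHom.mk' g ?_, hg, hg'⟩
  intro c d
  apply ext_ap
  intro u
  rw [ap_mul, hg', hg', hg']
  simp only [tor_apply, sympForm_add_left, sympForm_add_right, sympForm_smul_left, sympForm_smul_right, sympForm_self,
    h, mul_inv, Units.val_mul]
  module

end Cfsg.Agent.H269.EPC
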