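import Cfsg.Agent.H269.EPC.SpDec2
import Cfsg.Agent.H419.EP.Iface

/-!
# S3499-III-Sp-C2: nondegenerate decompositions in `Sp_{2k}(F)`, `|F| ≥ 3`

`x` the transvection of `a + b`, `a ∈ D i`, `b ∈ D j`. The elements of odd order of `M0 = A ∩ A^x` fix `D i`, `D j`, and have
inverse eigenvalues on `a`, `b`; the subgroup `K` they generate is characteristic in `M0` and normalised by the torus
element `h` of `D i` with `h a = c a`, `c ≠ 1`, which is not in `M0`.
-/

set_option autoImplicit false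

namespace Cfsg.Agent.H269.EPC

open Cfsg Cfsg.Geo Cfsg.Agent.ClassicalGeometry.SympBasic Cfsg.Agent.H913.GeoBasic
open Cfsg.Agent.H284 Cfsg.Agent.H419.EP
open scoped MatrixGroups Matrix

variable {k : ℕ} {F : Type*} [Field F]

local notation "V" => (Fin k ⊕ Fin k → F)
local notation "f" => sympForm k F
local notation "GLk" => GL (Fin k ⊕ Fin k) F

variable {t e : ℕ} {D : Fin t → Submodule F (Fin k ⊕ Fin k → F)}
variable {i j : Fin t} {a a' b b' : Fin k ⊕ Fin k → F} {x : GL (Fin k ⊕ Fin k) F}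

/-- the elements fixing `D i`, `D j` with inverse eigenvalues on `a`, `b` -/
structure Plus (D : Fin t → Submodule F (Fin k ⊕ Fin k → F)) (i j : Fin t) (a b : Fin k ⊕ Fin k → F)
    (g : GL (Fin k ⊕ Fin k) F) : Prop where
  mem : g ∈ spGL k F
  perm : ∃ σ, Perm' D g σ ∧ σ i = i ∧ σ j = j
  char : ∃ r r' : F, r * r' = 1 ∧ ap g a = r' • a ∧ ap g b = r • b

theorem Plus.dec {g : GLk} (h : Plus D i j a b g) : g ∈ decompositionStabilizer D := by
  obtain ⟨σ, hσ, -, -⟩ := h.perm
  refine ⟨σ, fun l => ?_⟩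
  ext w
  constructor
  · rintro ⟨u, hu, rfl⟩
    rw [Matrix.toLin'_apply]
    exact hσ.mem l u hu
  · intro hw
    obtain ⟨u, hu, e1⟩ := hσ.surj l w hw
    exact ⟨u, hu, by rw [Matrix.toLin'_apply]; exact e1⟩

theorem Plus.conj (d : Dat D e i j a a' b b' x) {g : GLk} (h : Plus D i j a b g) :
    x⁻¹ * g * x ∈ decompositionStabilizer D := by
  obtain ⟨σ, hσ, hi, hj⟩ := h.perm
  obtain ⟨r, r', hr, h1, h2⟩ := h.char
  exact d.conv hσ h.mem hi hj hr h1 h2

/-- from `M0` to `Plus` -/
theorem Dat.plus (d : Dat D e i j a a' b b' x) {g : GLk} (hg : g ∈ spGL k F) (hxS : x ∈ spGL k F)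
    {σ : Equiv.Perm (Fin t)} (hσ : Perm' D g σ) (hy : x⁻¹ * g * x ∈ decompositionStabilizer D) (hi : σ i = i)
    (hj : σ j = j) : Plus D i j a b g := by
  obtain ⟨τ, hτ⟩ := exists_perm' hy
  refine ⟨hg, ⟨σ, hσ, hi, hj⟩, ?_⟩
  exact d.char hσ hτ (by group) ((spGL k F).mul_mem ((spGL k F).mul_mem ((spGL k F).inv_mem hxS) hg) hxS) hi hj

/-- conjugation by an element fixing all members, `a` up to a scalar and `b` -/
theorem Plus.tor {g h : GLk} (hP : Plus D i j a b g) (hS : h ∈ spGL k F) (h1 : Perm' D h 1) {c : Fˣ}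
    (ha : ap h a = (c : F) • a) (hb : ap h b = b) : Plus D i j a b (h * g * h⁻¹) := by
  obtain ⟨σ, hσ, hi, hj⟩ := hP.perm
  obtain ⟨r, r', hr, h2, h3⟩ := hP.char
  have ha' : ap h⁻¹ a = ((c⁻¹ : Fˣ) : F) • a := by
    apply ap_inj (g := h)
    rw [ap_ap_inv, ap_smul, ha, smul_smul, Units.inv_mul, one_smul]
  have hb' : ap h⁻¹ b = b := by
    apply ap_inj (g := h)
    rw [ap_ap_inv, hb]
  refine ⟨(spGL k F).mul_mem ((spGL k F).mul_mem hS hP.mem) ((spGL k F).inv_mem hS), ⟨σ, ?_, hi, hj⟩,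
    ⟨r, r', hr, ?_, ?_⟩⟩
  · have h4 := (h1.mul hσ).mul h1.inv
    rwa [inv_one, mul_one, one_mul] at h4
  · rw [ap_mul, ap_mul, ha', ap_smul, ap_smul, h2, ap_smul, ha, smul_smul, smul_smul]
    congr 1
    have := Units.inv_mul c
    linear_combination r' * this
  · rw [ap_mul, ap_mul, hb', h3, ap_smul, hb]

/-- scalars fix every member -/
theorem perm_scalar {g : GLk} (hg : g ∈ scalars (Fin k ⊕ Fin k) F) : Perm' D g 1 := by
  obtain ⟨c, hc⟩ := (mem_scalars_iff g).1 hg
  have h1 : ∀ u : V, ap g u = (c : F) • u := by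
    intro u
    rw [ap, hc, Matrix.smul_mulVec, Matrix.one_mulVec]
  constructor
  · intro l u hu
    rw [h1]
    exact (D l).smul_mem _ hu
  · intro l w hw
    refine ⟨((c⁻¹ : Fˣ) : F) • w, (D l).smul_mem _ hw, ?_⟩
    rw [h1, smul_smul, Units.mul_inv, one_smul]

theorem perm_unique (hD : IsNondegenerateMDecomposition f e D) {g : GLk} {σ τ : Equiv.Perm (Fin t)}
    (h1 : Perm' D g σ) (h2 : Perm' D g τ) : σ = τ := by
  ext l
  by_contra hne
  obtain ⟨u, hu, u', -, huu⟩ := exists_pair hD l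
  have hne' : σ l ≠ τ l := fun h => hne (by rw [h])
  have h3 : ap g u = 0 := eq_zero_of_two hD hne' (h1.mem l u hu) (h2.mem l u hu)
  have h4 : u = 0 := ap_inj (g := g) (by rw [h3, ap_zero])
  rw [h4, sympForm_zero_right] at huu
  exact zero_ne_one huu

/-- a permutation exchanging `i`, `j` has no odd power `1` -/
theorem not_swap {σ : Equiv.Perm (Fin t)} {n : ℕ} (hn : Odd n) (h : σ ^ n = 1) (hij : i ≠ j) (h1 : σ i = j)
    (h2 : σ j = i) : False := by
  obtain ⟨m, rfl⟩ := hn
  have h3 : ∀ m : ℕ, (σ ^ (2 * m)) i = i := by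
    intro m
    induction m with
    | zero => simp
    | succ m ih =>
      rw [mul_add, mul_one, pow_add, Equiv.Perm.mul_apply, pow_two, Equiv.Perm.mul_apply, h1, h2, ih]
  have h4 : (σ ^ (2 * m + 1)) j = j := by rw [h]; rfl
  rw [pow_succ, Equiv.Perm.mul_apply, h2, h3] at h4
  exact hij h4

/-- a torus element acts on the members -/
theorem tor_perm (hD : IsNondegenerateMDecomposition f e D) (ha : a ∈ D i) (ha' : a' ∈ D i) {H : Fˣ →* GLk}
    (hH : ∀ c u, ap (H c) u = u + ((c : F) - 1) • (f a' u • a) + (((c⁻¹ : Fˣ) : F) - 1) • (f u a • a')) (c : Fˣ) :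
    Perm' D (H c) 1 := by
  have key : ∀ c : Fˣ, ∀ l, ∀ u ∈ D l, ap (H c) u ∈ D l := by
    intro c l u hu
    rw [hH]
    by_cases hl : l = i
    · subst hl
      exact (D l).add_mem ((D l).add_mem hu ((D l).smul_mem _ ((D l).smul_mem _ ha)))
        ((D l).smul_mem _ ((D l).smul_mem _ ha'))
    · rw [orth hD (Ne.symm hl) ha' hu, orth hD hl hu ha, zero_smul, zero_smul, smul_zero, smul_zero, add_zero, add_zero]
      exact hu
  refine ⟨fun l u hu => key c l u hu, fun l w hw => ⟨ap (H c⁻¹) w, key c⁻¹ l w hw, ?_⟩⟩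
  rw [map_inv, ap_ap_inv]

section

variable [Fintype F]

/-- a nonscalar element of odd order of `M0` -/
theorem exists_odd (d : Dat D e i j a a' b b' x) (hq : 3 ≤ Fintype.card F) :
    ∃ g, Plus D i j a b g ∧ g ∉ scalars (Fin k ⊕ Fin k) F ∧ ∃ n, Odd n ∧ g ^ n = 1 := by
  classical
  by_cases hodd : Odd (Fintype.card F)
  · -- a transvection of `D i`
    obtain ⟨g, hgS, hg⟩ := exists_transv (k := k) (F := F) a 1
    have hg' : ∀ u, ap g u = u + f u a • a := fun u => by rw [hg, one_mul]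
    obtain ⟨p, hp⟩ := CharP.exists F
    have hpn : p.Prime := CharP.char_is_prime F p
    have hpodd : Odd p := by
      obtain ⟨n, hn, hn1⟩ := FiniteField.card F p
      rw [hn1] at hodd
      exact hodd.of_dvd_nat (dvd_pow_self p n.pos.ne')
    have hpow : ∀ n : ℕ, ∀ u, ap (g ^ n) u = u + ((n : F) * f u a) • a := by
      intro n
      induction n with
      | zero => intro u; rw [pow_zero, ap_one]; simp
      | succ n ih =>
        intro u
        rw [pow_succ, ap_mul, hg', ih, sympForm_add_left, sympForm_smul_left, sympForm_self, mul_zero, add_zero]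
        push_cast
        module
    refine ⟨g, ⟨hgS, ⟨1, ⟨?_, ?_⟩, rfl, rfl⟩, ⟨1, 1, one_mul 1, ?_, ?_⟩⟩, ?_, p, hpodd, ?_⟩
    · intro l u hu
      rw [hg']
      by_cases hl : l = i
      · subst hl
        exact (D l).add_mem hu ((D l).smul_mem _ d.ha)
      · rw [orth d.hD hl hu d.ha, zero_smul, add_zero]
        exact hu
    · intro l w hw
      refine ⟨w - f w a • a, ?_, ?_⟩
      · by_cases hl : l = i
        · subst hl
          exact (D l).sub_mem hw ((D l).smul_mem _ d.ha)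
        · change w ∈ D l at hw
          rw [orth d.hD hl hw d.ha, zero_smul, sub_zero]
          exact hw
      · rw [hg', sympForm_sub_left, sympForm_smul_left, sympForm_self, mul_zero, sub_zero, sub_add_cancel]
    · rw [hg', sympForm_self, zero_smul, add_zero, one_smul]
    · rw [hg', orth d.hD d.hij.symm d.hb d.ha, zero_smul, add_zero, one_smul]
    · intro hs
      obtain ⟨c, hc⟩ := (mem_scalars_iff g).1 hs
      have h1 : ap g a' = (c : F) • a' := by rw [ap, hc, Matrix.smul_mulVec, Matrix.one_mulVec]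
      rw [hg', d.haa, one_smul] at h1
      have h2 := congrArg (fun u => f a' u) h1
      simp only [sympForm_add_right, sympForm_smul_right, sympForm_self, d.haa, mul_zero, zero_add] at h2
      exact one_ne_zero h2
    · apply ext_ap
      intro u
      rw [hpow, CharP.cast_eq_zero, zero_mul, zero_smul, add_zero, ap_one]
  · -- a torus element
    obtain ⟨H, hHS, hH⟩ := exists_tor d.haa
    obtain ⟨H', hHS', hH'⟩ := exists_tor d.hbb
    have hodd' : Odd (Fintype.card Fˣ) := by
      rw [Fintype.card_units]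
      have h1 : Even (Fintype.card F) := Nat.not_odd_iff_even.1 hodd
      obtain ⟨m, hm⟩ := h1
      exact ⟨m - 1, by omega⟩
    have h20 : (2 : F) = 0 := by
      have h1 : ((Fintype.card F : ℕ) : F) = 0 := Nat.cast_card_eq_zero F
      obtain ⟨p, hp⟩ := CharP.exists F
      have hpn : p.Prime := CharP.char_is_prime F p
      obtain ⟨n, hn, hn1⟩ := FiniteField.card F p
      have h3 : ¬ Odd p := fun h => hodd (by rw [hn1]; exact h.pow)
      have h4 : p = 2 := (hpn.eq_two_or_odd').resolve_right h3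
      have h5 : ((p : ℕ) : F) = 0 := CharP.cast_eq_zero F p
      rw [h4] at h5
      exact_mod_cast h5
    obtain ⟨c, hc⟩ : ∃ c : Fˣ, c ≠ 1 := by
      have : 1 < Fintype.card Fˣ := by rw [Fintype.card_units]; omega
      have := Fintype.one_lt_card_iff_nontrivial.1 this
      exact exists_ne 1
    have ea : ap (H c⁻¹) a = ((c⁻¹ : Fˣ) : F) • a := by
      rw [hH, d.haa, sympForm_self, zero_smul, smul_zero, add_zero, one_smul]
      module
    have eb : ap (H c⁻¹) b = b := by
      rw [hH, orth d.hD d.hij d.ha' d.hb, orth d.hD d.hij.symm d.hb d.ha, zero_smul, zero_smul, smul_zero, smul_zero,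
        add_zero, add_zero]
    have ea' : ap (H' c) a = a := by
      rw [hH', orth d.hD d.hij.symm d.hb' d.ha, orth d.hD d.hij d.ha d.hb, zero_smul, zero_smul, smul_zero, smul_zero,
        add_zero, add_zero]
    have eb' : ap (H' c) b = (c : F) • b := by
      rw [hH', d.hbb, sympForm_self, zero_smul, smul_zero, add_zero, one_smul]
      module
    have hcomm : Commute (H c⁻¹) (H' c) := by
      change H c⁻¹ * H' c = H' c * H c⁻¹
      apply ext_ap
      intro u
      rw [ap_mul, ap_mul]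
      simp only [hH, hH', sympForm_add_left, sympForm_add_right, sympForm_smul_left, sympForm_smul_right,
        orth d.hD d.hij.symm d.hb' d.ha, orth d.hD d.hij d.ha d.hb, orth d.hD d.hij d.ha' d.hb,
        orth d.hD d.hij.symm d.hb d.ha, orth d.hD d.hij d.ha' d.hb', orth d.hD d.hij.symm d.hb' d.ha', mul_zero,
        add_zero]
      module
    refine ⟨H c⁻¹ * H' c, ⟨(spGL k F).mul_mem (hHS _) (hHS' _), ⟨1, ?_, rfl, rfl⟩,
      ⟨(c : F), ((c⁻¹ : Fˣ) : F), Units.mul_inv c, ?_, ?_⟩⟩, ?_, Fintype.card Fˣ, hodd', ?_⟩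
    · have := (tor_perm d.hD d.ha d.ha' hH c⁻¹).mul (tor_perm d.hD d.hb d.hb' hH' c)
      rwa [one_mul] at this
    · rw [ap_mul, ea', ea]
    · rw [ap_mul, eb', ap_smul, eb]
    · intro hs
      obtain ⟨z, hz⟩ := (mem_scalars_iff _).1 hs
      have h1 : ∀ u, ap (H c⁻¹ * H' c) u = (z : F) • u := fun u => by
        rw [ap, hz, Matrix.smul_mulVec, Matrix.one_mulVec]
      have h2 := h1 a
      have h3 := h1 b
      rw [ap_mul, ea', ea] at h2
      rw [ap_mul, eb', ap_smul, eb] at h3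
      have h4 := congrArg (fun u => f a' u) h2
      have h5 := congrArg (fun u => f b' u) h3
      simp only [sympForm_smul_right, d.haa, d.hbb, mul_one] at h4 h5
      -- `c = c⁻¹`, so `c² = 1`
      have h6 : (c : F) * (c : F) = 1 := by
        have := Units.mul_inv c
        rw [h4, ← h5] at this
        exact this
      apply hc
      apply Units.ext
      have h7 : ((c : F) - 1) * ((c : F) - 1) = 0 := by
        linear_combination h6 - ((c : F) - 1) * h20
      rcases mul_self_eq_zero.1 h7 with h8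
      exact sub_eq_zero.1 h8
    · rw [hcomm.mul_pow, ← map_pow, ← map_pow, pow_card_eq_one, pow_card_eq_one, map_one, map_one, one_mul]

/-- **[Sp-C2]** the stabiliser of a nondegenerate decomposition is not a point stabiliser of an extremely primitive group -/
theorem sp_c2 {Q : Type*} [Group Q] [Finite Q] {A : Subgroup Q} {Γ : Subgroup (MulAut Q)} (h : EPT A Γ)
    (m : Model Q (spGL k F)) (hq : 3 ≤ Fintype.card F) (hD : IsNondegenerateMDecomposition f e D)
    (hA : m.hat A ≤ decompositionStabilizer D) : False := by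
  classical
  have ht := hD.decomp.two_le
  obtain ⟨i, j, hij⟩ : ∃ i j : Fin t, i ≠ j := ⟨⟨0, by omega⟩, ⟨1, by omega⟩, fun h => by
    have := congrArg Fin.val h
    simp at this⟩
  obtain ⟨a, ha, a', ha', haa⟩ := exists_pair hD i
  obtain ⟨b, hb, b', hb', hbb⟩ := exists_pair hD j
  obtain ⟨x, hxS, hx⟩ := exists_transv (k := k) (F := F) (a + b) 1
  have d : Dat D e i j a a' b b' x := ⟨hD, hij, ha, ha', hb, hb', haa, hbb, fun u => by rw [hx, one_mul]⟩
  have hxD : x ∉ decompositionStabilizer D := by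
    intro hmem
    obtain ⟨σ, hσ⟩ := exists_perm' hmem
    exact d.not_mem (σ i) (hσ.mem i a' ha')
  have hhat : m.hat A = decompositionStabilizer D ⊓ spGL k F :=
    eq_of_max (m.isMaximalIn h.max) hA (fun hle => hxD (hle hxS))
  have hAiff : ∀ s : spGL k F, m.π s ∈ A ↔ (s : GLk) ∈ decompositionStabilizer D := by
    intro s
    rw [← m.mem_hat_iff, hhat, Subgroup.mem_inf]
    exact ⟨fun h => h.1, fun h => ⟨h, s.2⟩⟩
  set X := m.π ⟨x, hxS⟩ with hXdef
  have hX : X ∉ A := fun h => hxD ((hAiff _).1 h)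
  have hM0 : ∀ s : spGL k F, m.π s ∈ A ⊓ cj X A ↔
      (s : GLk) ∈ decompositionStabilizer D ∧ x⁻¹ * (s : GLk) * x ∈ decompositionStabilizer D := by
    intro s
    have e1 : X⁻¹ * m.π s * X = m.π ((⟨x, hxS⟩ : spGL k F)⁻¹ * s * ⟨x, hxS⟩) := by rw [map_mul, map_mul, map_inv]
    rw [Subgroup.mem_inf, hAiff, mem_cj, e1, hAiff]
    exact Iff.rfl
  -- the elements of odd order
  have hplus : ∀ s : spGL k F, m.π s ∈ A ⊓ cj X A → Odd (orderOf (m.π s)) → Plus D i j a b (s : GLk) := by
    intro s hs ho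
    obtain ⟨h1, h2⟩ := (hM0 s).1 hs
    obtain ⟨σ, hσ⟩ := exists_perm' h1
    obtain ⟨τ, hτ⟩ := exists_perm' h2
    have hpow : σ ^ orderOf (m.π s) = 1 := by
      have h3 : m.π (s ^ orderOf (m.π s)) = 1 := by rw [map_pow, pow_orderOf_eq_one]
      have h4 := (m.ker _).1 h3
      exact perm_unique hD (hσ.pow _) (perm_scalar h4)
    rcases d.pair hσ hτ (by group) with ⟨hi, hj⟩ | ⟨hi, hj⟩
    · exact d.plus s.2 hxS hσ h2 hi hj
    · exact (not_swap ho hpow hij hi hj).elim
  have hback : ∀ s : spGL k F, Plus D i j a b (s : GLk) → m.π s ∈ A ⊓ cj X A := fun s hs =>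
    (hM0 s).2 ⟨hs.dec, hs.conj d⟩
  -- the torus element
  obtain ⟨H, hHS, hH⟩ := exists_tor haa
  obtain ⟨c, hc⟩ : ∃ c : Fˣ, c ≠ 1 := by
    have : 1 < Fintype.card Fˣ := by rw [Fintype.card_units]; omega
    have := Fintype.one_lt_card_iff_nontrivial.1 this
    exact exists_ne 1
  have ea : ap (H c) a = (c : F) • a := by
    rw [hH, haa, sympForm_self, zero_smul, smul_zero, add_zero, one_smul]
    module
  have eb : ap (H c) b = b := by
    rw [hH, orth hD hij ha' hb, orth hD hij.symm hb ha, zero_smul, zero_smul, smul_zero, smul_zero, add_zero, add_zero]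
  have hH1 : Perm' D (H c) 1 := tor_perm hD ha ha' hH c
  have hHP : H c ∈ decompositionStabilizer D := mem_dec hD.decomp fun l => ⟨l, hH1.mem l⟩
  have hcX : m.π ⟨H c, hHS c⟩ ∈ cj X A := by
    refine h.norm_aut hX (K := Subgroup.closure {y | y ∈ A ⊓ cj X A ∧ Odd (orderOf y)}) ?_ ?_ ?_
      ((hAiff ⟨H c, hHS c⟩).2 hHP) ?_
    · rw [Subgroup.closure_le]
      exact fun y hy => hy.1
    · intro σ hσ k hk
      have h1 : Subgroup.closure {y | y ∈ A ⊓ cj X A ∧ Odd (orderOf y)} ≤
          (Subgroup.closure {y | y ∈ A ⊓ cj X A ∧ Odd (orderOf y)}).comap σ.toMonoidHom := by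
        rw [Subgroup.closure_le]
        intro y hy
        refine Subgroup.subset_closure ⟨hσ y hy.1, ?_⟩
        change Odd (orderOf (σ y))
        rw [MulEquiv.orderOf_eq]
        exact hy.2
      exact h1 hk
    · obtain ⟨g, hg, hgs, n, hn, hgn⟩ := exists_odd d hq
      intro hbot
      apply hgs
      rw [← m.ker ⟨g, hg.mem⟩, ← Subgroup.mem_bot, ← hbot]
      refine Subgroup.subset_closure ⟨hback ⟨g, hg.mem⟩ hg, ?_⟩
      refine hn.of_dvd_nat (orderOf_dvd_of_pow_eq_one ?_)
      rw [← map_pow]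
      have : (⟨g, hg.mem⟩ : spGL k F) ^ n = 1 := Subtype.ext hgn
      rw [this, map_one]
    · intro k hk
      have h1 : Subgroup.closure {y | y ∈ A ⊓ cj X A ∧ Odd (orderOf y)} ≤
          (Subgroup.closure {y | y ∈ A ⊓ cj X A ∧ Odd (orderOf y)}).comap
            (MulAut.conj (m.π ⟨H c, hHS c⟩)).toMonoidHom := by
        rw [Subgroup.closure_le]
        intro y hy
        refine Subgroup.subset_closure ⟨?_, ?_⟩
        · change m.π ⟨H c, hHS c⟩ * y * (m.π ⟨H c, hHS c⟩)⁻¹ ∈ A ⊓ cj X A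
          obtain ⟨s, rfl⟩ := m.surj y
          rw [← map_inv, ← map_mul, ← map_mul]
          exact hback _ ((hplus s hy.1 hy.2).tor (hHS c) hH1 ea eb)
        · change Odd (orderOf (MulAut.conj (m.π ⟨H c, hHS c⟩) y))
          rw [MulEquiv.orderOf_eq]
          exact hy.2
      exact h1 hk
  -- contradiction
  obtain ⟨h1, h2⟩ := (hM0 ⟨H c, hHS c⟩).1 ⟨(hAiff ⟨H c, hHS c⟩).2 hHP, hcX⟩
  have h3 := (d.plus (hHS c) hxS hH1 h2 rfl rfl).char
  obtain ⟨r, r', hr, e1, e2⟩ := h3
  rw [ea] at e1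
  rw [eb] at e2
  have e3 := congrArg (fun u => f a' u) e1
  have e4 := congrArg (fun u => f b' u) e2
  simp only [sympForm_smul_right, haa, hbb, mul_one] at e3 e4
  apply hc
  apply Units.ext
  rw [← e4, ← e3, one_mul] at hr
  exact hr

end

/-- [Sp-C2] in the shape of the task -/
theorem row_sp_c2 {Q : Type*} [Group Q] [Finite Q] (_ : IsSimpleGroup Q) {A : Subgroup Q} {Γ : Subgroup (MulAut Q)}
    (h : EPT A Γ) {F : Type*} [Field F] [Fintype F] {k : ℕ} (m : Model Q (spGL k F)) (_ : 2 ≤ k)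
    (hq : 3 ≤ Fintype.card F) {t e : ℕ} {D : Fin t → Submodule F (Fin k ⊕ Fin k → F)}
    (hD : IsNondegenerateMDecomposition (sympForm k F) e D) (hA : m.hat A ≤ decompositionStabilizer D ⊓ spGL k F) :
    False := sp_c2 h m hq hD (hA.trans inf_le_left)

end Cfsg.Agent.H269.EPC
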