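import Cfsg.Agent.H269.EPC.SpAct

/-!
# The stabiliser of two nondegenerate decompositions `D` and `x D`, `x` the transvection of `a + b`, `a ∈ D i`, `b ∈ D j`
-/

set_option autoImplicit false

namespace Cfsg.Agent.H269.EPC

open Cfsg Cfsg.Geo Cfsg.Agent.ClassicalGeometry.SympBasic Cfsg.Agent.H913.GeoBasic
open scoped MatrixGroups Matrix

variable {k : ℕ} {F : Type*} [Field F]

local notation "V" => (Fin k ⊕ Fin k → F)
local notation "f" => sympForm k F
local notation "GLk" => GL (Fin k ⊕ Fin k) F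

variable {t e : ℕ} {D : Fin t → Submodule F (Fin k ⊕ Fin k → F)}

theorem orth (hD : IsNondegenerateMDecomposition f e D) {l l' : Fin t} (h : l ≠ l') {u w : V} (hu : u ∈ D l)
    (hw : w ∈ D l') : f u w = 0 := hD.orthogonal l l' h u hu w hw

/-- nondegeneracy on a member -/
theorem eq_of_pair (hD : IsNondegenerateMDecomposition f e D) {l : Fin t} {u w : V} (hu : u ∈ D l) (hw : w ∈ D l)
    (h : ∀ z ∈ D l, f u z = f w z) : u = w := by
  by_contra hne
  obtain ⟨-, z, hz, hz1⟩ := hD.nondegenerate l (u - w) (Submodule.sub_mem _ hu hw) (sub_ne_zero.2 hne)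
  apply hz1
  rw [sympForm_sub_left, h z hz, sub_self]

/-- a hyperbolic pair in a member -/
theorem exists_pair (hD : IsNondegenerateMDecomposition f e D) (l : Fin t) : ∃ a ∈ D l, ∃ a' ∈ D l, f a' a = 1 := by
  obtain ⟨a, ha, ha0⟩ : ∃ w ∈ D l, w ≠ 0 := by
    apply Submodule.exists_mem_ne_zero_of_ne_bot
    intro h
    have h2 := hD.decomp.finrank_eq l
    rw [h, finrank_bot] at h2
    exact absurd h2.symm hD.decomp.pos.ne'
  obtain ⟨⟨z, hz, hz1⟩, -⟩ := hD.nondegenerate l a ha ha0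
  refine ⟨a, ha, (f z a)⁻¹ • z, (D l).smul_mem _ hz, ?_⟩
  rw [sympForm_smul_left, inv_mul_cancel₀ hz1]

variable {i j : Fin t} {a a' b b' : Fin k ⊕ Fin k → F} {x : GL (Fin k ⊕ Fin k) F}

/-- the data -/
structure Dat (D : Fin t → Submodule F (Fin k ⊕ Fin k → F)) (e : ℕ) (i j : Fin t) (a a' b b' : Fin k ⊕ Fin k → F)
    (x : GL (Fin k ⊕ Fin k) F) : Prop where
  hD : IsNondegenerateMDecomposition (sympForm k F) e D
  hij : i ≠ j
  ha : a ∈ D i
  ha' : a' ∈ D i
  hb : b ∈ D j
  hb' : b' ∈ D j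
  haa : sympForm k F a' a = 1
  hbb : sympForm k F b' b = 1
  hx : ∀ u, ap x u = u + sympForm k F u (a + b) • (a + b)

theorem Dat.symm (d : Dat D e i j a a' b b' x) : Dat D e j i b b' a a' x where
  hD := d.hD
  hij := d.hij.symm
  ha := d.hb
  ha' := d.hb'
  hb := d.ha
  hb' := d.ha'
  haa := d.hbb
  hbb := d.haa
  hx := by
    intro u
    rw [d.hx, add_comm b a]

theorem Dat.apx_i (d : Dat D e i j a a' b b' x) {u : V} (hu : u ∈ D i) : ap x u = u + f u a • (a + b) := by
  rw [d.hx, sympForm_add_right, orth d.hD d.hij hu d.hb, add_zero]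

theorem Dat.apx_ne (d : Dat D e i j a a' b b' x) {l : Fin t} (hi : l ≠ i) (hj : l ≠ j) {u : V} (hu : u ∈ D l) :
    ap x u = u := by
  rw [d.hx, sympForm_add_right, orth d.hD hi hu d.ha, orth d.hD hj hu d.hb, add_zero, zero_smul, add_zero]

theorem Dat.apx_a' (d : Dat D e i j a a' b b' x) : ap x a' = a' + (a + b) := by
  rw [d.apx_i d.ha', d.haa, one_smul]

theorem Dat.apx_a (d : Dat D e i j a a' b b' x) : ap x a = a := by
  rw [d.apx_i d.ha, sympForm_self, zero_smul, add_zero]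

theorem Dat.fbb (d : Dat D e i j a a' b b' x) : f b b' = -1 := by rw [sympForm_swap, d.hbb]

/-- `x a'` lies in no member -/
theorem Dat.not_mem (d : Dat D e i j a a' b b' x) (l : Fin t) : ap x a' ∉ D l := by
  rw [d.apx_a']
  intro h
  by_cases hl : l = i
  · subst hl
    have h1 := orth d.hD d.hij h d.hb'
    rw [sympForm_add_left, sympForm_add_left, orth d.hD d.hij d.ha' d.hb', orth d.hD d.hij d.ha d.hb', d.fbb] at h1
    simp at h1
  · have h1 := orth d.hD hl h d.ha
    rw [sympForm_add_left, sympForm_add_left, d.haa, sympForm_self, orth d.hD d.hij.symm d.hb d.ha] at h1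
    simp at h1

/-- `g` permutes the members by `σ` -/
structure Perm' (D : Fin t → Submodule F (Fin k ⊕ Fin k → F)) (g : GL (Fin k ⊕ Fin k) F) (σ : Equiv.Perm (Fin t)) :
    Prop where
  mem : ∀ l, ∀ u ∈ D l, ap g u ∈ D (σ l)
  surj : ∀ l, ∀ w ∈ D (σ l), ∃ u ∈ D l, ap g u = w

theorem exists_perm' {g : GLk} (hg : g ∈ decompositionStabilizer D) : ∃ σ, Perm' D g σ := by
  obtain ⟨σ, h1, h2⟩ := exists_perm hg
  exact ⟨σ, h1, h2⟩

theorem Perm'.inv {g : GLk} {σ : Equiv.Perm (Fin t)} (h : Perm' D g σ) : Perm' D g⁻¹ σ⁻¹ where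
  mem := by
    intro l u hu
    have hu' : u ∈ D (σ (σ⁻¹ l)) := by rwa [show σ (σ⁻¹ l) = l from σ.apply_symm_apply l]
    obtain ⟨w, hw, e⟩ := h.surj _ u hu'
    rw [← e, ap_inv_ap]
    exact hw
  surj := by
    intro l w hw
    refine ⟨ap g w, ?_, ap_inv_ap g w⟩
    have := h.mem _ w hw
    rwa [show σ (σ⁻¹ l) = l from σ.apply_symm_apply l] at this

theorem Perm'.mul {g g' : GLk} {σ σ' : Equiv.Perm (Fin t)} (h : Perm' D g σ) (h' : Perm' D g' σ') :
    Perm' D (g * g') (σ * σ') where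
  mem := by
    intro l u hu
    rw [ap_mul]
    exact h.mem _ _ (h'.mem _ _ hu)
  surj := by
    intro l w hw
    obtain ⟨z, hz, e⟩ := h.surj _ w hw
    obtain ⟨u, hu, e'⟩ := h'.surj _ z hz
    exact ⟨u, hu, by rw [ap_mul, e', e]⟩

theorem Perm'.one : Perm' D 1 1 where
  mem := by
    intro l u hu
    rw [ap_one]
    exact hu
  surj := fun l w hw => ⟨w, hw, ap_one w⟩

theorem Perm'.pow {g : GLk} {σ : Equiv.Perm (Fin t)} (h : Perm' D g σ) (n : ℕ) : Perm' D (g ^ n) (σ ^ n) := by
  induction n with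
  | zero => rw [pow_zero, pow_zero]; exact Perm'.one
  | succ n ih => rw [pow_succ, pow_succ]; exact ih.mul h

theorem eq_zero_of_two (hD : IsNondegenerateMDecomposition f e D) {l l' : Fin t} (h : l ≠ l') {u : V} (hu : u ∈ D l)
    (hu' : u ∈ D l') : u = 0 :=
  eq_of_pair hD hu' (D l').zero_mem fun z hz => by rw [orth hD h hu hz, sympForm_zero_left]

/-- `τ l ≠ i` -/
theorem Dat.ne_aux (d : Dat D e i j a a' b b' x) {g y : GLk} {σ τ : Equiv.Perm (Fin t)} (hg : Perm' D g σ)
    (hy : Perm' D y τ) (hgy : g * x = x * y) {l : Fin t} (hi : l ≠ i) (hj : l ≠ j) : τ l ≠ i := by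
  intro h
  have h1 : a' ∈ D (τ l) := by rw [h]; exact d.ha'
  obtain ⟨u, hu, e1⟩ := hy.surj l a' h1
  apply d.not_mem (σ l)
  rw [← e1, ← ap_mul, ← hgy, ap_mul, d.apx_ne hi hj hu]
  exact hg.mem l u hu

/-- the complement of `{i, j}` is invariant -/
theorem Dat.ne (d : Dat D e i j a a' b b' x) {g y : GLk} {σ τ : Equiv.Perm (Fin t)} (hg : Perm' D g σ)
    (hy : Perm' D y τ) (hgy : g * x = x * y) {l : Fin t} (hi : l ≠ i) (hj : l ≠ j) : σ l ≠ i ∧ σ l ≠ j := by
  have h1 : τ l ≠ i := d.ne_aux hg hy hgy hi hj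
  have h2 : τ l ≠ j := d.symm.ne_aux hg hy hgy hj hi
  suffices h3 : σ l = τ l by
    rw [h3]
    exact ⟨h1, h2⟩
  by_contra hne
  obtain ⟨u, hu, u', -, huu⟩ := exists_pair d.hD l
  have e1 : ap g u = ap y u := by
    have e2 : ap (g * x) u = ap (x * y) u := by rw [hgy]
    rw [ap_mul, ap_mul, d.apx_ne hi hj hu, d.apx_ne h1 h2 (hy.mem l u hu)] at e2
    exact e2
  have h3 : ap g u = 0 := eq_zero_of_two d.hD hne (hg.mem l u hu) (by rw [e1]; exact hy.mem l u hu)
  have h4 : u = 0 := ap_inj (g := g) (by rw [h3, ap_zero])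
  rw [h4, sympForm_zero_right] at huu
  exact zero_ne_one huu

/-- `σ {i, j} = {i, j}` -/
theorem Dat.pair (d : Dat D e i j a a' b b' x) {g y : GLk} {σ τ : Equiv.Perm (Fin t)} (hg : Perm' D g σ)
    (hy : Perm' D y τ) (hgy : g * x = x * y) : (σ i = i ∧ σ j = j) ∨ (σ i = j ∧ σ j = i) := by
  have hgy' : g⁻¹ * x = x * y⁻¹ := by
    have h1 : g * (x * y⁻¹) = x := by rw [← mul_assoc, hgy, mul_assoc, mul_inv_cancel, mul_one]
    rw [inv_mul_eq_iff_eq_mul, h1]
  have key : ∀ l, l = i ∨ l = j → σ l = i ∨ σ l = j := by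
    intro l hl
    by_contra hcon
    push Not at hcon
    have h2 := d.ne hg.inv hy.inv hgy' hcon.1 hcon.2
    rw [show σ⁻¹ (σ l) = l from σ.symm_apply_apply l] at h2
    rcases hl with rfl | rfl
    · exact h2.1 rfl
    · exact h2.2 rfl
  have hne : σ i ≠ σ j := fun h => d.hij (σ.injective h)
  rcases key i (Or.inl rfl) with h1 | h1
  · rcases key j (Or.inr rfl) with h2 | h2
    · exact absurd (h1.trans h2.symm) hne
    · exact Or.inl ⟨h1, h2⟩
  · rcases key j (Or.inr rfl) with h2 | h2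
    · exact Or.inr ⟨h1, h2⟩
    · exact absurd (h1.trans h2.symm) hne

/-- if `σ i = i`, `σ j = j` then `y` fixes `D i`, `y a = g a` -/
theorem Dat.fix (d : Dat D e i j a a' b b' x) {g y : GLk} {σ τ : Equiv.Perm (Fin t)} (hg : Perm' D g σ)
    (hy : Perm' D y τ) (hgy : g * x = x * y) (hi : σ i = i) : τ i = i ∧ ap y a = ap g a := by
  have e0 : ap g a = ap y a + f (ap y a) (a + b) • (a + b) := by
    have e1 : ap (g * x) a = ap (x * y) a := by rw [hgy]
    rw [ap_mul, ap_mul, d.apx_a, d.hx] at e1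
    exact e1
  set s := f (ap y a) (a + b) with hs
  have hga : ap g a ∈ D i := by
    have := hg.mem i a d.ha
    rwa [hi] at this
  have hya := hy.mem i a d.ha
  have ha0 : ap g a ≠ 0 := by
    intro h0
    have h1 : a = 0 := ap_inj (g := g) (by rw [h0, ap_zero])
    have h2 := d.haa
    rw [h1, sympForm_zero_right] at h2
    exact zero_ne_one h2
  -- pairing with `D j`
  have hj : ∀ z ∈ D j, 0 = f (ap y a) z + s * f b z := by
    intro z hz
    have h1 := orth d.hD d.hij hga hz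
    rw [e0, sympForm_add_left, sympForm_smul_left, sympForm_add_left, orth d.hD d.hij d.ha hz, zero_add] at h1
    exact h1.symm
  by_cases hτ : τ i = i
  · refine ⟨hτ, ?_⟩
    rw [hτ] at hya
    have h2 := hj b' d.hb'
    rw [orth d.hD d.hij hya d.hb', d.fbb] at h2
    have h3 : s = 0 := by linear_combination h2
    rw [e0, h3, zero_smul, add_zero]
  · exfalso
    -- pairing with `D i`
    have h1 : ap g a = s • a := by
      refine eq_of_pair d.hD hga ((D i).smul_mem _ d.ha) fun z hz => ?_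
      rw [e0, sympForm_add_left, sympForm_smul_left, sympForm_smul_left, sympForm_add_left, orth d.hD hτ hya hz,
        orth d.hD d.hij.symm d.hb hz, zero_add, add_zero]
    have hs0 : s = 0 := by
      by_cases hτj : τ i = j
      · rw [hτj] at hya
        have h2 : ap y a = (-s) • b := by
          refine eq_of_pair d.hD hya ((D j).smul_mem _ d.hb) fun z hz => ?_
          have h3 := hj z hz
          rw [sympForm_smul_left]
          linear_combination -h3
        rw [hs, h2, sympForm_smul_left, sympForm_add_right, orth d.hD d.hij.symm d.hb d.ha, sympForm_self, add_zero,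
          mul_zero]
      · have h2 := hj b' d.hb'
        rw [orth d.hD hτj hya d.hb', d.fbb] at h2
        linear_combination h2
    rw [hs0, zero_smul] at h1
    exact ha0 h1

theorem Dat.char_aux (d : Dat D e i j a a' b b' x) {g y : GLk} {σ τ : Equiv.Perm (Fin t)} (hg : Perm' D g σ)
    (hy : Perm' D y τ) (hgy : g * x = x * y) (hi : σ i = i) (hj : σ j = j) : ap g b = f (ap y a') a • b := by
  obtain ⟨hτ, -⟩ := d.fix hg hy hgy hi
  have hya' := hy.mem i a' d.ha'
  rw [hτ] at hya'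
  have hga' := hg.mem i a' d.ha'
  rw [hi] at hga'
  have hga := hg.mem i a d.ha
  rw [hi] at hga
  have hgb := hg.mem j b d.hb
  rw [hj] at hgb
  have e1 : ap (g * x) a' = ap (x * y) a' := by rw [hgy]
  rw [ap_mul, ap_mul, d.apx_a', d.apx_i hya', ap_add, ap_add] at e1
  refine eq_of_pair d.hD hgb ((D j).smul_mem _ d.hb) fun z hz => ?_
  have e2 := congrArg (fun u => f u z) e1
  simp only [sympForm_add_left, sympForm_smul_left] at e2
  rw [orth d.hD d.hij hga' hz, orth d.hD d.hij hga hz, orth d.hD d.hij hya' hz, orth d.hD d.hij d.ha hz] at e2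
  rw [sympForm_smul_left]
  linear_combination e2

/-- the two eigenvalues are inverse to each other -/
theorem Dat.char (d : Dat D e i j a a' b b' x) {g y : GLk} {σ τ : Equiv.Perm (Fin t)} (hg : Perm' D g σ)
    (hy : Perm' D y τ) (hgy : g * x = x * y) (hyS : y ∈ spGL k F) (hi : σ i = i) (hj : σ j = j) :
    ∃ r r' : F, r * r' = 1 ∧ ap g a = r' • a ∧ ap g b = r • b := by
  refine ⟨f (ap y a') a, f (ap y b') b, ?_, d.symm.char_aux hg hy hgy hj hi, d.char_aux hg hy hgy hi hj⟩
  have h1 := mem_sp.1 hyS a' a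
  rw [d.haa, (d.fix hg hy hgy hi).2, d.symm.char_aux hg hy hgy hj hi, sympForm_smul_right] at h1
  linear_combination h1

/-- converse on `D i` -/
theorem Dat.conv_aux (d : Dat D e i j a a' b b' x) {g : GLk} {σ : Equiv.Perm (Fin t)} (hg : Perm' D g σ)
    (hgS : g ∈ spGL k F) (hi : σ i = i) {r r' : F} (hr : r * r' = 1) (h1 : ap g a = r' • a) (h2 : ap g b = r • b)
    {u : V} (hu : u ∈ D i) : ap (x⁻¹ * g * x) u ∈ D i := by
  have hgu := hg.mem i u hu
  rw [hi] at hgu
  have e1 : ap (x⁻¹ * g * x) u = ap g u + (f u a * (r' - r)) • a := by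
    apply ap_inj (g := x)
    rw [← ap_mul, show x * (x⁻¹ * g * x) = g * x by group, ap_mul, d.apx_i hu,
      d.apx_i (Submodule.add_mem _ hgu (Submodule.smul_mem _ _ d.ha)), ap_add, ap_smul, ap_add, h1, h2, sympForm_add_left,
      sympForm_smul_left, sympForm_self, mul_zero, add_zero]
    have h3 : f (ap g u) a = r * f u a := by
      have h4 := mem_sp.1 hgS u a
      rw [h1, sympForm_smul_right] at h4
      linear_combination r * h4 - f (ap g u) a * hr
    rw [h3]
    module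
  rw [e1]
  exact Submodule.add_mem _ hgu (Submodule.smul_mem _ _ d.ha)

/-- converse -/
theorem Dat.conv (d : Dat D e i j a a' b b' x) {g : GLk} {σ : Equiv.Perm (Fin t)} (hg : Perm' D g σ)
    (hgS : g ∈ spGL k F) (hi : σ i = i) (hj : σ j = j) {r r' : F} (hr : r * r' = 1) (h1 : ap g a = r' • a)
    (h2 : ap g b = r • b) : x⁻¹ * g * x ∈ decompositionStabilizer D := by
  refine mem_dec d.hD.decomp fun l => ?_
  by_cases hl : l = i
  · exact ⟨i, fun u hu => d.conv_aux hg hgS hi hr h1 h2 (hl ▸ hu)⟩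
  by_cases hl' : l = j
  · exact ⟨j, fun u hu => d.symm.conv_aux hg hgS hj (by rw [mul_comm]; exact hr) h2 h1 (hl' ▸ hu)⟩
  · refine ⟨σ l, fun u hu => ?_⟩
    have h3 : σ l ≠ i := fun h => hl (σ.injective (h.trans hi.symm))
    have h4 : σ l ≠ j := fun h => hl' (σ.injective (h.trans hj.symm))
    have e1 : ap (x⁻¹ * g * x) u = ap g u := by
      apply ap_inj (g := x)
      rw [← ap_mul, show x * (x⁻¹ * g * x) = g * x by group, ap_mul, d.apx_ne hl hl' hu,
        d.apx_ne h3 h4 (hg.mem l u hu)]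
    rw [e1]
    exact hg.mem l u hu

end Cfsg.Agent.H269.EPC
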